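import Cfsg.Agent.H892.CC.Transp
import Cfsg.Agent.KFacts.Baby.RowB
import Cfsg.Agent.BabyM.Instance
import Cfsg.Agent.BabyM.Fi23B
import Cfsg.Agent.S1697

/-!
# S3828, the row of the Baby Monster (helper892, task 2661 of helper162)

`p = 2`: the abelian normal 2-subgroups of `2^{1+22}.Co2` lie in the centre of `2^{1+22}`.
`p = 3`: `Fi23` has index prime to 3.
`p ≥ 5`: the Baby Monster is a `{3,4}`-transposition group.
-/

set_option autoImplicit false

namespace Cfsg.Agent.H892.CC.RowB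

open Subgroup Cfsg Cfsg.Agent.Lib.Cores Cfsg.Agent.H162.CCR Cfsg.Agent.BabyM Cfsg.Agent.BabyM.Model

/-- The abelian normal 2-subgroups of `H`, where `Q ⊴ H` is not abelian, `H/Q` is simple and not of order 2 and `Q/⟨z⟩` is irreducible. -/
theorem sq_of_irred {G K₀ : Type*} [Group G] [Finite G] [Group K₀] [IsSimpleGroup K₀] (hK : ¬ IsPGroup 2 K₀) {H Q : Subgroup G}
    {z : G} (hz : z * z = 1) (π : H →* K₀) (hπ : Function.Surjective π)
    (hker : ∀ g : H, π g = 1 ↔ (g : G) ∈ Q) (hirr : ∀ N : Subgroup G, N ≤ Q → (∀ g ∈ H, ∀ n ∈ N, g * n * g⁻¹ ∈ N) →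
      (∀ n ∈ N, n = 1 ∨ n = z) ∨ N = Q) (hna : ∃ x ∈ Q, ∃ y ∈ Q, x * y ≠ y * x) {A : Subgroup G} (hA : A ≤ H)
    (hN : H ≤ Subgroup.normalizer (A : Set G)) (hA2 : IsPGroup 2 A) (hcomm : ∀ x ∈ A, ∀ y ∈ A, x * y = y * x) :
    ∀ x ∈ A, x * x = 1 := by
  have : Fact (Nat.Prime 2) := ⟨Nat.prime_two⟩
  have hAn : (A.subgroupOf H).Normal := by
    refine ⟨fun x hx g => ?_⟩
    rw [Subgroup.mem_subgroupOf] at hx ⊢
    exact ((Subgroup.mem_normalizer_iff.1 (hN g.2)) x).1 hx
  have hmap : ((A.subgroupOf H).map π).Normal := Subgroup.Normal.map hAn π hπ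
  have hAQ : A ≤ Q := by
    rcases (inferInstance : IsSimpleGroup K₀).eq_bot_or_eq_top_of_normal _ hmap with h | h
    · intro x hx
      have h1 : π ⟨x, hA hx⟩ ∈ (A.subgroupOf H).map π := ⟨⟨x, hA hx⟩, hx, rfl⟩
      rw [h, Subgroup.mem_bot] at h1
      exact (hker _).1 h1
    · exfalso
      apply hK
      have h1 : IsPGroup 2 (A.subgroupOf H) := hA2.of_equiv (Subgroup.subgroupOfEquivOfLe hA).symm
      have h2 : IsPGroup 2 ((A.subgroupOf H).map π) := h1.map π
      rw [h] at h2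
      exact h2.of_equiv Subgroup.topEquiv
  rcases hirr A hAQ (fun g hg n hn => ((Subgroup.mem_normalizer_iff.1 (hN hg)) n).1 hn) with h | h
  · intro x hx
    rcases h x hx with rfl | rfl
    · exact one_mul 1
    · exact hz
  · exfalso
    obtain ⟨x, hx, y, hy, hxy⟩ := hna
    rw [← h] at hx hy
    exact hxy (hcomm x hx y hy)

theorem crow_model (p : ℕ) [hp : Fact p.Prime] : CRow p Inst.M.G := by
  intro C hC
  have A := Instance.all
  have B := Instance.tr
  have hfin : Finite Inst.M.G := A.finite_G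
  have hs : IsSimpleGroup Inst.M.G := Instance.isB.1
  have hcard : Nat.card Inst.M.G = 4154781481226426191177580544000000 := Instance.isB.2
  have hab : ¬ IsMulCommutative Inst.M.G := by
    intro hab
    let _ : CommGroup Inst.M.G := { mul_comm := fun a b => hab.is_comm.comm a b }
    have h3 : (Nat.card Inst.M.G).Prime := IsSimpleGroup.prime_card
    rw [hcard] at h3
    revert h3
    norm_num
  have hO := pCore_eq_bot_of_simple hab p
  have hCG : Inst.M.C ≤ Inst.M.G := fun g hg => A.C_le_G hg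
  have hQG : Inst.M.Q ≤ Inst.M.G := fun g hg => A.C_le_G (A.grp.Q_le hg)
  by_cases hp2 : p = 2
  · subst hp2
    obtain ⟨π, hπ, hker⟩ := A.grp.quot
    have hK₀ : IsSimpleGroup GroupInst.K₀ := A.grp.simple
    have hcK := A.grp.card
    have hcC : Nat.card Inst.M.C = 2 ^ 23 * 42305421312000 := by
      have h1 : Nat.card π.ker = Nat.card Inst.M.Q := by
        have h2 : π.ker = Inst.M.Q.subgroupOf Inst.M.C := by
          ext g
          rw [MonoidHom.mem_ker, hker, Subgroup.mem_subgroupOf]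
        rw [h2]
        exact Nat.card_congr (Subgroup.subgroupOfEquivOfLe A.grp.Q_le).toEquiv
      have h2 := π.ker.card_mul_index
      have h3 := Subgroup.index_ker π
      rw [MonoidHom.range_eq_top.mpr hπ, Subgroup.card_top, hcK] at h3
      rw [h1, h3, A.grp.Q_card] at h2
      exact h2.symm
    have hcC' : Nat.card (Inst.M.C.subgroupOf Inst.M.G) = 2 ^ 23 * 42305421312000 := by
      rw [Nat.card_congr (Subgroup.subgroupOfEquivOfLe hCG).toEquiv, hcC]
    have hidx : (Inst.M.C.subgroupOf Inst.M.G).index = 11707448673375 := by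
      have h1 := (Inst.M.C.subgroupOf Inst.M.G).card_mul_index
      rw [hcC', hcard] at h1
      omega
    have htop : Inst.M.C.subgroupOf Inst.M.G ≠ ⊤ := by
      intro h
      rw [h, index_top] at hidx
      omega
    refine hC.eq_one_of_two_abelian hO htop (by rw [hidx]; norm_num) ?_
    intro X hX hN hX2 hcomm
    let f : Inst.M.C.subgroupOf Inst.M.G ≃* Inst.M.C := Subgroup.subgroupOfEquivOfLe hCG
    refine sq_of_irred (K₀ := GroupInst.K₀) (H := Inst.M.C.subgroupOf Inst.M.G) (Q := Inst.M.Q.subgroupOf Inst.M.G)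
      (z := ⟨Inst.M.z, hQG A.grp.z_mem⟩) ?_ ?_ (π.comp f.toMonoidHom) (hπ.comp f.surjective) ?_ ?_ ?_ hX hN hX2 hcomm
    · intro h
      have hfK : Finite GroupInst.K₀ := Nat.finite_of_card_ne_zero (by rw [hcK]; norm_num)
      obtain ⟨n, hn⟩ := IsPGroup.iff_card.1 h
      rw [hcK] at hn
      have h3 : 3 ∣ 2 ^ n := by
        rw [← hn]
        norm_num
      have := Nat.prime_three.dvd_of_dvd_pow h3
      omega
    · exact Subtype.ext A.grp.z_sq
    · intro g
      show π (f g) = 1 ↔ _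
      rw [hker, Subgroup.mem_subgroupOf]
      exact Iff.rfl
    · intro N hNQ hNinv
      have h1 := A.grp.Q_irred (N.map Inst.M.G.subtype) ?_ ?_
      · rcases h1 with h1 | h1
        · left
          intro n hn
          rcases h1 n ⟨n, hn, rfl⟩ with h2 | h2
          · left
            exact Subtype.ext h2
          · right
            exact Subtype.ext h2
        · right
          apply le_antisymm hNQ
          intro x hx
          rw [Subgroup.mem_subgroupOf, ← h1] at hx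
          obtain ⟨y, hy, hyx⟩ := hx
          have : y = x := Subtype.ext hyx
          rwa [this] at hy
      · rintro _ ⟨y, hy, rfl⟩
        exact hNQ hy
      · rintro g hg _ ⟨y, hy, rfl⟩
        exact ⟨_, hNinv ⟨g, hCG hg⟩ hg y hy, rfl⟩
    · obtain ⟨q, hq, -, h1⟩ := A.exists_q
      refine ⟨⟨q, hQG hq⟩, hq, ⟨Inst.M.t₀, hQG A.rep.t₀_mem⟩, A.rep.t₀_mem, ?_⟩
      intro h2
      have h3 : q * Inst.M.t₀ = Inst.M.t₀ * q := congrArg Subtype.val h2
      rw [h1] at h3
      exact A.grp.z_ne (mul_eq_left.1 h3)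
  by_cases hp3 : p = 3
  · subst hp3
    obtain ⟨K, hK⟩ := Fi23B.main A Instance.ok Cfsg.Agent.S1697.result
    exact eq_one_of_card hC (H := K) (m := 1015970529280000) (by rw [hcard]) hK.2 hK.1 (by norm_num) (by norm_num)
      (by norm_num)
  -- `{3,4}`-transpositions
  have hp5 : 4 < p := by
    have h1 := hp.out.two_le
    have h4 : p ≠ 4 := by
      rintro rfl
      exact absurd hp.out (by norm_num)
    omega
  set t : Inst.M.G := ⟨Inst.M.t₀, hQG A.rep.t₀_mem⟩ with ht
  refine eq_one_of_transp hC hO hs hp2 (t := t) (Subtype.ext A.rep.t₀_sq)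
    (fun h => A.rep.t₀_ne (congrArg Subtype.val h)) hp5 ?_
  intro s hs'
  obtain ⟨k, rfl⟩ := isConj_iff.1 hs'
  obtain ⟨j, h, hh, hc⟩ : k.1 Inst.M.d₀ ∈ Inst.M.D := ((A.G_le k.2).2 _).2 A.d₀_mem
  obtain ⟨l, hl, hld, hord⟩ := B.order_le j
  obtain ⟨n, hn0, hn4, hpow⟩ := hord h⁻¹ (Inst.M.C.inv_mem hh)
  have h1 := A.conj_t h l k.1 (A.C_le hh) (A.G_le hl) (A.G_le k.2) (Or.inl (by rw [hld, hc]))
  refine (orderOf_le_of_pow_eq_one hn0 ?_).trans hn4
  apply Subtype.ext
  have e2 : (t * (k * t * k⁻¹)).1 = h * ((h⁻¹ * Inst.M.t₀ * h⁻¹⁻¹) * (l * Inst.M.t₀ * l⁻¹)) * h⁻¹ := by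
    have e3 : (t * (k * t * k⁻¹)).1 = Inst.M.t₀ * (k.1 * Inst.M.t₀ * k.1⁻¹) := rfl
    rw [e3, ← h1]
    group
  change (t * (k * t * k⁻¹)).1 ^ n = 1
  rw [e2, conj_pow, hpow, mul_one, mul_inv_cancel]

/-- **The row of the Baby Monster.** -/
theorem crow_b {G : Type*} [Group G] (h : Spor.IsoB G) (p : ℕ) [Fact p.Prime] : CRow p G := by
  obtain ⟨e⟩ := KFacts.Baby.RowB.exists_iso h
  exact CRow.of_equiv e.symm (crow_model p)

end Cfsg.Agent.H892.CC.RowB
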