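import Cfsg.Agent.H162.CC.Tools3

/-!
# Method T for S3828: classes of `n`-transpositions (helper892)

Let `t` be an involution of the simple group `G`.  If `C ≠ 1` then some `1 ≠ e ∈ C` is inverted by `t`
(`Min.exists_inverted`).  For odd `p` the element `t e` is conjugate to `t`, so `e = t (t e)` is a product of two
conjugates of `t`.  So if the products of two conjugates of `t` have order `≤ n` then there is no `C ≠ 1` for `p > n`.
-/

set_option autoImplicit false

namespace Cfsg.Agent.H892.CC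

open Subgroup Cfsg Cfsg.Agent.Lib.Cores Cfsg.Agent.H162.CCR

variable {G : Type*} [Group G]

/-- an involution `t` inverting `e` of odd order is conjugate to `t e` -/
theorem isConj_mul_of_inverts {t e : G} (hte : t * e * t⁻¹ = e⁻¹) (hodd : Odd (orderOf e)) :
    IsConj t (t * e) := by
  obtain ⟨j, hj⟩ := hodd
  have hm : e ^ (j + 1) * e ^ (j + 1) = e := by
    rw [← pow_add]
    have e1 : j + 1 + (j + 1) = orderOf e + 1 := by omega
    rw [e1, pow_succ, pow_orderOf_eq_one, one_mul]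
  have h1 : t * e ^ (j + 1) * t⁻¹ = (e ^ (j + 1))⁻¹ := by rw [← conj_pow, hte, inv_pow]
  have h2 : t * e ^ (j + 1) = (e ^ (j + 1))⁻¹ * t := by rw [← h1]; group
  rw [isConj_iff]
  refine ⟨(e ^ (j + 1))⁻¹, ?_⟩
  rw [inv_inv, ← h2, mul_assoc, hm]

variable [Finite G] {p : ℕ} [hp : Fact p.Prime] {C : Set G}

/-- For odd `p` and every involution `t` some `1 ≠ e ∈ C` is a product of two conjugates of `t`. -/
theorem exists_prod (h : Min p C) (hO : pCore p G = ⊥) (hs : IsSimpleGroup G) (hp2 : p ≠ 2) {c : G} (hc : c ∈ C)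
    (hc1 : c ≠ 1) {t : G} (ht : t * t = 1) (ht1 : t ≠ 1) :
    ∃ e ∈ C, e ≠ 1 ∧ t * e * t⁻¹ = e⁻¹ ∧ ∃ s : G, IsConj t s ∧ e = t * s := by
  obtain ⟨e, he, he1, hte⟩ := h.exists_inverted hO hc hc1 ht ht1 hs
  refine ⟨e, he, he1, hte, t * e, ?_, ?_⟩
  · apply isConj_mul_of_inverts hte
    obtain ⟨k, hk⟩ := h.pel e he
    rw [hk]
    exact (hp.out.odd_of_ne_two hp2).pow
  · rw [← mul_assoc, ht, one_mul]

/-- **Method T**: the products of two conjugates of the involution `t` have order `≤ n < p`. -/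
theorem eq_one_of_transp (h : Min p C) (hO : pCore p G = ⊥) (hs : IsSimpleGroup G) (hp2 : p ≠ 2) {t : G}
    (ht : t * t = 1) (ht1 : t ≠ 1) {n : ℕ} (hn : n < p) (hord : ∀ s : G, IsConj t s → orderOf (t * s) ≤ n) :
    ∀ c ∈ C, c = 1 := by
  intro c hc
  by_contra hc1
  obtain ⟨e, he, he1, -, s, hs1, hes⟩ := exists_prod h hO hs hp2 hc hc1 ht ht1
  have h1 := hord s hs1
  rw [← hes] at h1
  obtain ⟨k, hk⟩ := h.pel e he
  have hk0 : k ≠ 0 := by
    rintro rfl
    rw [pow_zero, orderOf_eq_one_iff] at hk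
    exact he1 hk
  have h2 : p ∣ orderOf e := by
    rw [hk]
    exact dvd_pow_self p hk0
  have h3 := Nat.le_of_dvd (orderOf_pos e) h2
  omega

/-- Variant: no product of two conjugates of `t` has order `p ^ k`, `k ≥ 1`. -/
theorem eq_one_of_not_prod (h : Min p C) (hO : pCore p G = ⊥) (hs : IsSimpleGroup G) (hp2 : p ≠ 2) {t : G}
    (ht : t * t = 1) (ht1 : t ≠ 1) (hord : ∀ s : G, IsConj t s → ¬ p ∣ orderOf (t * s)) : ∀ c ∈ C, c = 1 := by
  intro c hc
  by_contra hc1
  obtain ⟨e, he, he1, -, s, hs1, hes⟩ := exists_prod h hO hs hp2 hc hc1 ht ht1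
  apply hord s hs1
  rw [← hes]
  obtain ⟨k, hk⟩ := h.pel e he
  have hk0 : k ≠ 0 := by
    rintro rfl
    rw [pow_zero, orderOf_eq_one_iff] at hk
    exact he1 hk
  rw [hk]
  exact dvd_pow_self p hk0

/-- The core of a non-abelian simple proper subgroup is trivial: a proper non-abelian simple subgroup of index prime to `p`. -/
theorem eq_one_of_simple (h : Min p C) {H : Subgroup G} (hH : H ≠ ⊤) (hi : ¬ p ∣ H.index) (hs : IsSimpleGroup H)
    (hab : ¬ IsMulCommutative H) : ∀ c ∈ C, c = 1 :=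
  h.eq_one_of_index hH hi (pCore_eq_bot_of_simple (G := H) hab p)

/-- The same with orders: `|G| = n m`, `|H| = n`, `n` not prime, `p ∤ m`, `m ≠ 1`. -/
theorem eq_one_of_card (h : Min p C) {H : Subgroup G} {n m : ℕ} (hG : Nat.card G = n * m) (hH : Nat.card H = n)
    (hs : IsSimpleGroup H) (hn : ¬ n.Prime) (hm : ¬ p ∣ m) (hm1 : m ≠ 1) : ∀ c ∈ C, c = 1 := by
  have h1 := H.card_mul_index
  rw [hH, hG] at h1
  have hn0 : 0 < n := by rw [← hH]; exact Nat.card_pos
  have hi : H.index = m := Nat.eq_of_mul_eq_mul_left hn0 h1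
  refine eq_one_of_simple h (H := H) ?_ (by rw [hi]; exact hm) hs ?_
  · intro ht
    rw [ht, index_top] at hi
    exact hm1 hi.symm
  · intro hab
    let _ : CommGroup H := { mul_comm := fun a b => hab.is_comm.comm a b }
    have h3 : (Nat.card H).Prime := IsSimpleGroup.prime_card
    rw [hH] at h3
    exact hn h3

end Cfsg.Agent.H892.CC
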